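import Groth.Prelude.Def_Dual3
import Groth.Prelude.Def_DualSch
import Groth.Agent.Localalg.DGor
import Groth.Agent.LoccohA.GorBC
import Groth.Agent.S0345
import Groth.Agent.S0371
import Mathlib.AlgebraicGeometry.Noetherian

/-!
# Gorenstein schemes with a dualizing complex: the structure sheaf is a dualizing complex

* `isGorensteinRing_of_isOpenImmersion`: coordinate rings of affine opens of a Gorenstein scheme.
* `isDualizing_self_of_isDualizing`: a Gorenstein ring having a dualizing complex is dualizing.
* `restrictStructure`: `O_X|_{Spec A} ≅ A~` in `D(O_{Spec A})`.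
* `isDualizingSch_structure_iff`.
-/

set_option autoImplicit false
universe u
open CategoryTheory CategoryTheory.Limits AlgebraicGeometry
attribute [local instance] HasDerivedCategory.standard

namespace Groth.Agent.Dual.H326.GorDualSch

/-- The local ring of `Spec A` at `p`, seen in `X`. -/
theorem nonempty_stalk_ringEquiv {X : Scheme.{u}} (A : Type u) [CommRing A]
    (j : Spec (CommRingCat.of A) ⟶ X) [IsOpenImmersion j] (p : PrimeSpectrum A) :
    Nonempty (X.presheaf.stalk (j p) ≃+* Localization.AtPrime p.asIdeal) :=
  ⟨(asIso (j.stalkMap p)).commRingCatIsoToRingEquiv.trans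
    (Spec.stalkIso (CommRingCat.of A) p).commRingCatIsoToRingEquiv⟩

theorem isNoetherianRing_of_isOpenImmersion {X : Scheme.{u}} [IsLocallyNoetherian X] (A : Type u)
    [CommRing A] (j : Spec (CommRingCat.of A) ⟶ X) [IsOpenImmersion j] : IsNoetherianRing A := by
  have := isLocallyNoetherian_of_isOpenImmersion j
  exact isLocallyNoetherian_Spec.1 this

/-- Coordinate rings of affine opens of a Gorenstein scheme are Gorenstein rings. -/
theorem isGorensteinRing_of_isOpenImmersion {X : Scheme.{u}} (hX : Dual3.IsGorenstein X)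
    (A : Type u) [CommRing A] (j : Spec (CommRingCat.of A) ⟶ X) [IsOpenImmersion j] :
    LocCoh.IsGorensteinRing A := by
  have := hX.1
  have hN := isNoetherianRing_of_isOpenImmersion A j
  refine { isGorensteinLocalRing_localization := fun p hp => ?_ }
  obtain ⟨e⟩ := nonempty_stalk_ringEquiv A j ⟨p, hp⟩
  exact LoccohA.GorBC.isGorensteinLocalRing_of_ringEquiv e (hX.2 _)

/-- A Gorenstein ring which has a dualizing complex has finite injective dimension over itself. -/
theorem exists_injDim_of_isDualizing (A : Type u) [CommRing A] [hG : LocCoh.IsGorensteinRing A]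
    {ω : Dual.D A} (hω : Dual.IsDualizing A ω) :
    ∃ n : ℕ, CategoryTheory.HasInjectiveDimensionLT (ModuleCat.of A A) n :=
  (S0345.result A).2 ⟨hG, S0371.result A ω hω⟩

/-- A Gorenstein ring which has a dualizing complex is a dualizing complex over itself. -/
theorem isDualizing_self_of_isDualizing (A : Type u) [CommRing A]
    [hG : LocCoh.IsGorensteinRing A] {ω : Dual.D A} (hω : Dual.IsDualizing A ω) :
    Dual.IsDualizing A (Dual.inD A A) := by
  obtain ⟨n, hn⟩ := exists_injDim_of_isDualizing A hω
  exact Localalg.DGor.isDualizing_self A n hn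

/-- `O_X[0]|_{U} ≅ O_U[0]`. -/
noncomputable def restrictStructureD {U X : Scheme.{u}} (j : U ⟶ X) [IsOpenImmersion j]
    [PreservesFiniteLimits (Scheme.Modules.restrictFunctor j)] :
    (DCoh.restrictD j).obj (DCoh.inD X (Coh.structureModule X)) ≅
      DCoh.inD U (Coh.structureModule U) :=
  ((Scheme.Modules.restrictFunctor j).mapDerivedCategorySingleFunctor 0).app _ ≪≫
    (DerivedCategory.singleFunctor U.Modules 0).mapIso (Scheme.Modules.restrictUnitIso j)

/-- `(R[0])~ ≅ O_{Spec R}[0]`. -/
noncomputable def tildeStructureD' (R : CommRingCat.{u})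
    [PreservesFiniteLimits (tilde.functor R)] :
    (DCoh.tildeD R).obj ((DerivedCategory.singleFunctor (ModuleCat.{u} R) 0).obj (ModuleCat.of R R)) ≅
      DCoh.inD (Spec R) (Coh.structureModule (Spec R)) :=
  ((tilde.functor R).mapDerivedCategorySingleFunctor 0).app _ ≪≫
    (DerivedCategory.singleFunctor (Spec R).Modules 0).mapIso tildeSelf

/-- `(A[0])~ ≅ O_{Spec A}[0]`. -/
noncomputable def tildeStructureD (A : Type u) [CommRing A]
    [PreservesFiniteLimits (tilde.functor (CommRingCat.of A))] :
    (DCoh.tildeD (CommRingCat.of A)).obj (Dual.inD A A) ≅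
      DCoh.inD (Spec (CommRingCat.of A)) (Coh.structureModule (Spec (CommRingCat.of A))) :=
  tildeStructureD' (CommRingCat.of A)

/-- `O_X[0]|_{Spec A} ≅ (A[0])~`. -/
noncomputable def restrictStructure {X : Scheme.{u}} (A : Type u) [CommRing A]
    (j : Spec (CommRingCat.of A) ⟶ X) [IsOpenImmersion j]
    [PreservesFiniteLimits (Scheme.Modules.restrictFunctor j)]
    [PreservesFiniteLimits (tilde.functor (CommRingCat.of A))] :
    (DCoh.restrictD j).obj (DCoh.inD X (Coh.structureModule X)) ≅
      (DCoh.tildeD (CommRingCat.of A)).obj (Dual.inD A A) :=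
  restrictStructureD j ≪≫ (tildeStructureD A).symm

/-- If every affine open has a dualizing complex (with no compatibility) and `X` is Gorenstein, then
the structure sheaf in degree zero is a dualizing complex. -/
theorem isDualizingSch_structure {X : Scheme.{u}} (hX : Dual3.IsGorenstein X)
    [∀ (U : Scheme.{u}) (j : U ⟶ X) [IsOpenImmersion j],
      PreservesFiniteLimits (Scheme.Modules.restrictFunctor j)]
    [∀ (R : CommRingCat.{u}), PreservesFiniteLimits (tilde.functor R)]
    (h : ∀ (A : Type u) [CommRing A] (j : Spec (CommRingCat.of A) ⟶ X) [IsOpenImmersion j],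
      ∃ ω : Dual.D A, Dual.IsDualizing A ω) :
    Dual2.IsDualizingSch X (DCoh.inD X (Coh.structureModule X)) := by
  intro A _ j _
  obtain ⟨ω, hω⟩ := h A j
  have hG := isGorensteinRing_of_isOpenImmersion hX A j
  exact ⟨Dual.inD A A, isDualizing_self_of_isDualizing A hω, ⟨restrictStructure A j⟩⟩

end Groth.Agent.Dual.H326.GorDualSch
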